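import Cfsg.Agent.H951.Rl.ExtSL

/-!
# Sharper orders of the normalisers of extension fields (S3691, helper951)
-/

set_option autoImplicit false

namespace Cfsg.Agent.H951.Rl

open Cfsg Cfsg.Geo Module
open scoped Matrix MatrixGroups

/-- the number of invertible matrices commuting with a field of matrices -/
theorem card_comm_gl {ι : Type} [Fintype ι] [DecidableEq ι] {F : Type*} [Field F] [Fintype F] {L : Type*} [Field L]
    [Algebra F L] [FiniteDimensional F L] (φ : L →ₐ[F] Module.End F (ι → F)) :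
    Nat.card {g : GL ι F // ∀ a v, (g : Matrix ι ι F) *ᵥ (φ a v) = φ a ((g : Matrix ι ι F) *ᵥ v)} ≤
      ∏ i : Fin (Fintype.card ι / finrank F L), ((Fintype.card F ^ finrank F L) ^ (Fintype.card ι / finrank F L) -
        (Fintype.card F ^ finrank F L) ^ (i : ℕ)) := by
  classical
  have hfL : Finite L := Module.finite_of_finite F
  have hFL : Fintype L := Fintype.ofFinite L
  have hfV : Finite (H954.FieldSub.VS φ) := inferInstanceAs (Finite (ι → F))
  have hfE : Finite (H954.FieldSub.VS φ →ₗ[L] H954.FieldSub.VS φ) := Module.finite_of_finite L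
  let E : (g : GL ι F) → (∀ a v, (g : Matrix ι ι F) *ᵥ (φ a v) = φ a ((g : Matrix ι ι F) *ᵥ v)) →
      Module.End L (H954.FieldSub.VS φ) := fun g hg =>
    { toFun := fun v => ((g : Matrix ι ι F) *ᵥ v : ι → F)
      map_add' := fun u v => Matrix.mulVec_add (g : Matrix ι ι F) u v
      map_smul' := fun a v => hg a v }
  have hinv : ∀ g : GL ι F, (∀ a v, (g : Matrix ι ι F) *ᵥ (φ a v) = φ a ((g : Matrix ι ι F) *ᵥ v)) →
      ∀ a v, ((g⁻¹ : GL ι F) : Matrix ι ι F) *ᵥ (φ a v) = φ a (((g⁻¹ : GL ι F) : Matrix ι ι F) *ᵥ v) := by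
    intro g hg a v
    have h1 := hg a (((g⁻¹ : GL ι F) : Matrix ι ι F) *ᵥ v)
    rw [Matrix.mulVec_mulVec, ← Units.val_mul, mul_inv_cancel, Units.val_one, Matrix.one_mulVec] at h1
    rw [← h1, Matrix.mulVec_mulVec, ← Units.val_mul, inv_mul_cancel, Units.val_one, Matrix.one_mulVec]
  have hvi : ∀ (g : GL ι F) (v : ι → F), (g : Matrix ι ι F) *ᵥ (((g⁻¹ : GL ι F) : Matrix ι ι F) *ᵥ v) = v := by
    intro g v
    rw [Matrix.mulVec_mulVec, ← Units.val_mul, mul_inv_cancel, Units.val_one, Matrix.one_mulVec]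
  have hvi' : ∀ (g : GL ι F) (v : ι → F), ((g⁻¹ : GL ι F) : Matrix ι ι F) *ᵥ ((g : Matrix ι ι F) *ᵥ v) = v := by
    intro g v
    rw [Matrix.mulVec_mulVec, ← Units.val_mul, inv_mul_cancel, Units.val_one, Matrix.one_mulVec]
  let f : {g : GL ι F // ∀ a v, (g : Matrix ι ι F) *ᵥ (φ a v) = φ a ((g : Matrix ι ι F) *ᵥ v)} →
      (Module.End L (H954.FieldSub.VS φ))ˣ := fun g =>
    { val := E g.1 g.2
      inv := E g.1⁻¹ (hinv g.1 g.2)
      val_inv := LinearMap.ext fun v => hvi g.1 v
      inv_val := LinearMap.ext fun v => hvi' g.1 v }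
  have hf : Function.Injective f := by
    intro M N h
    apply Subtype.ext
    apply Units.ext
    apply Matrix.ext_of_mulVec_single
    intro i
    exact LinearMap.congr_fun (congrArg Units.val h) (Pi.single i 1 : ι → F)
  refine (Nat.card_le_card_of_injective f hf).trans (le_of_eq ?_)
  have h1 := H954.FieldSub.finrank_VS φ
  rw [Module.finrank_fintype_fun_eq_card] at h1
  have h2 : Fintype.card ι / finrank F L = finrank L (H954.FieldSub.VS φ) := by
    rw [← h1, Nat.mul_div_cancel_left _ Module.finrank_pos]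
  have h3 : Fintype.card L = Fintype.card F ^ finrank F L := by
    rw [← Nat.card_eq_fintype_card, Module.natCard_eq_pow_finrank (K := F), Nat.card_eq_fintype_card]
  rw [h2, ← h3, ← Matrix.card_GL_field]
  exact Nat.card_congr (Units.mapEquiv (LinearMap.toMatrixAlgEquiv (Module.finBasis L (H954.FieldSub.VS φ))).toMulEquiv).toEquiv

/-- the order of the normaliser of a field of matrices of degree `s`: at most `s |GL_(n/s)(q^s)|` -/
theorem card_ext_prod {ι : Type} [Fintype ι] [DecidableEq ι] [Nonempty ι] {F : Type} [Field F] [Fintype F] {s : ℕ}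
    {K : Subalgebra F (Matrix ι ι F)} (hK : IsFieldSubalgebra s K) :
    Nat.card (subalgebraNormalizer K) ≤ s * ∏ i : Fin (Fintype.card ι / s),
      ((Fintype.card F ^ s) ^ (Fintype.card ι / s) - (Fintype.card F ^ s) ^ (i : ℕ)) := by
  classical
  have hfin : Finite (GL ι F) := inferInstance
  have hN : H912.NormAlg (subalgebraNormalizer K) K := fun _ hh a ha => (hh a).mp ha
  let _ : Field K := (H912.isField_of_fieldSub hK).toField
  have hfd : Module.Finite F K := inferInstance
  have hKfin : Finite K := Module.finite_of_finite F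
  have hgal : IsGalois F K := inferInstance
  let φ : subalgebraNormalizer K →* (K ≃ₐ[F] K) :=
    { toFun := fun h => H912.conjSub hN h
      map_one' := by
        apply AlgEquiv.ext
        intro x
        apply Subtype.ext
        rw [H912.conjSub_coe]
        simp
      map_mul' := fun a b => by
        apply AlgEquiv.ext
        intro x
        apply Subtype.ext
        rw [AlgEquiv.mul_apply, H912.conjSub_coe, H912.conjSub_coe, H912.conjSub_coe, Subgroup.coe_mul,
          _root_.mul_inv_rev, Units.val_mul, Units.val_mul]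
        simp only [Matrix.mul_assoc] }
  have hs0 : 0 < s := H912.finrank_pos_fieldSub hK
  let ψ : K →ₐ[F] Module.End F (ι → F) := (Matrix.toLinAlgEquiv' (R := F) (n := ι)).toAlgHom.comp K.val
  have hψ : ∀ (a : K) (v : ι → F), ψ a v = (a : Matrix ι ι F) *ᵥ v := fun a v => rfl
  have hker : Nat.card φ.ker ≤ ∏ i : Fin (Fintype.card ι / s),
      ((Fintype.card F ^ s) ^ (Fintype.card ι / s) - (Fintype.card F ^ s) ^ (i : ℕ)) := by
    have hmem : ∀ g : φ.ker, ∀ (a : K) (v : ι → F),
        (((g : subalgebraNormalizer K) : GL ι F) : Matrix ι ι F) *ᵥ (ψ a v) =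
          ψ a ((((g : subalgebraNormalizer K) : GL ι F) : Matrix ι ι F) *ᵥ v) := by
      intro g a v
      have h1 : (H912.conjSub hN (g : subalgebraNormalizer K)) = 1 := g.2
      have h2 := H912.conjSub_coe hN (g : subalgebraNormalizer K) a
      rw [h1] at h2
      change (a : Matrix ι ι F) = _ at h2
      rw [hψ, hψ, Matrix.mulVec_mulVec, Matrix.mulVec_mulVec]
      congr 1
      conv_rhs => rw [h2]
      rw [Matrix.mul_assoc, ← Units.val_mul, inv_mul_cancel, Units.val_one, Matrix.mul_one]
    have h1 := card_comm_gl ψ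
    have h2 : finrank F K = s := hK.finrank_eq
    rw [h2] at h1
    refine le_trans (Nat.card_le_card_of_injective (fun g : φ.ker =>
      (⟨((g : subalgebraNormalizer K) : GL ι F), hmem g⟩ : {g : GL ι F // ∀ a v,
        (g : Matrix ι ι F) *ᵥ (ψ a v) = ψ a ((g : Matrix ι ι F) *ᵥ v)})) ?_) h1
    intro a b hab
    have h3 : ((a : subalgebraNormalizer K) : GL ι F) = ((b : subalgebraNormalizer K) : GL ι F) :=
      congrArg (fun t => t.1) hab
    exact Subtype.ext (Subtype.ext h3)
  have hran : Nat.card φ.range ≤ s := by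
    have h1 : Nat.card (K ≃ₐ[F] K) = s := by
      rw [IsGalois.card_aut_eq_finrank, hK.finrank_eq]
    have hf2 : Finite (K ≃ₐ[F] K) := Nat.finite_of_card_ne_zero (by rw [h1]; omega)
    calc Nat.card φ.range ≤ Nat.card (K ≃ₐ[F] K) := Nat.card_le_card_of_injective _ φ.range.subtype_injective
      _ = s := h1
  have h1 := Subgroup.card_eq_card_quotient_mul_card_subgroup φ.ker
  have h2 : Nat.card (subalgebraNormalizer K ⧸ φ.ker) = Nat.card φ.range :=
    Nat.card_congr (QuotientGroup.quotientKerEquivRange φ).toEquiv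
  rw [h1, h2]
  exact Nat.mul_le_mul hran hker

/-- PSL-4', in `SL` -/
theorem card_ext_sl_prod {ι : Type} [Fintype ι] [DecidableEq ι] [Nonempty ι] {F : Type} [Field F] [Fintype F] {s : ℕ}
    {K : Subalgebra F (Matrix ι ι F)} (hK : IsFieldSubalgebra s K) :
    Nat.card (subalgebraNormalizer K ⊓ specialLinear ι F : Subgroup (GL ι F)) * (Fintype.card F - 1) ≤
      s * ∏ i : Fin (Fintype.card ι / s),
        ((Fintype.card F ^ s) ^ (Fintype.card ι / s) - (Fintype.card F ^ s) ^ (i : ℕ)) := by
  rw [card_inf_sl hK]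
  exact card_ext_prod hK

end Cfsg.Agent.H951.Rl
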