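import Cfsg.Agent.H951.Rl.Ext

/-!
# Orders of the normalisers of extension fields in `SL` (S3691, helper951)
-/

set_option autoImplicit false

namespace Cfsg.Agent.H951.Rl

open Cfsg Cfsg.Geo Module
open scoped Matrix MatrixGroups

/-- the determinant is surjective on the centraliser of a field of matrices -/
theorem exists_det {ι : Type} [Fintype ι] [DecidableEq ι] [Nonempty ι] {F : Type} [Field F] [Fintype F] {s : ℕ}
    {K : Subalgebra F (Matrix ι ι F)} (hK : IsFieldSubalgebra s K) (u : Fˣ) :
    ∃ g ∈ subalgebraNormalizer K, Matrix.GeneralLinearGroup.det g = u := by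
  classical
  let _ : Field K := (H912.isField_of_fieldSub hK).toField
  have hfd : Module.Finite F K := inferInstance
  have hKfin : Finite K := Module.finite_of_finite F
  let ψ : K →ₐ[F] Module.End F (ι → F) := (Matrix.toLinAlgEquiv' (R := F) (n := ι)).toAlgHom.comp K.val
  have hψ : ∀ (a : K) (v : ι → F), ψ a v = (a : Matrix ι ι F) *ᵥ v := fun a v => rfl
  obtain ⟨c, hc, hcd⟩ := H954.FieldSub.exists_det_eq ψ u.ne_zero
  let M : Matrix ι ι F := LinearMap.toMatrix' (c : (ι → F) →ₗ[F] (ι → F))
  have hM : ∀ v, M *ᵥ v = c v := fun v => by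
    rw [← Matrix.toLin'_apply, Matrix.toLin'_toMatrix']
    rfl
  have hdet : M.det = u := by rw [LinearMap.det_toMatrix', hcd]
  let g : GL ι F := Matrix.GeneralLinearGroup.mk'' M (by rw [hdet]; exact u.isUnit)
  have hg : (g : Matrix ι ι F) = M := rfl
  refine ⟨g, H954.FieldSub.mem_normalizer_of fun k hk => ?_, Units.ext ?_⟩
  · have h1 : (g : Matrix ι ι F) * k = k * (g : Matrix ι ι F) := by
      apply Matrix.ext_of_mulVec_single
      intro i
      rw [← Matrix.mulVec_mulVec, ← Matrix.mulVec_mulVec, hg, hM, hM]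
      exact hc ⟨k, hk⟩ _
    rw [h1, mul_assoc, ← Units.val_mul, mul_inv_cancel, Units.val_one, mul_one]
    exact hk
  · rw [Matrix.GeneralLinearGroup.val_det_apply, hg, hdet]

theorem card_inf_sl {ι : Type} [Fintype ι] [DecidableEq ι] [Nonempty ι] {F : Type} [Field F] [Fintype F] {s : ℕ}
    {K : Subalgebra F (Matrix ι ι F)} (hK : IsFieldSubalgebra s K) :
    Nat.card (subalgebraNormalizer K ⊓ specialLinear ι F : Subgroup (GL ι F)) * (Fintype.card F - 1) =
      Nat.card (subalgebraNormalizer K) := by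
  classical
  set N := subalgebraNormalizer K with hN
  let d : N →* Fˣ := (Matrix.GeneralLinearGroup.det : GL ι F →* Fˣ).comp N.subtype
  have hd : Function.Surjective d := by
    intro u
    obtain ⟨g, hg, hgd⟩ := exists_det hK u
    exact ⟨⟨g, hg⟩, hgd⟩
  have h1 := Subgroup.card_eq_card_quotient_mul_card_subgroup d.ker
  have h2 : Nat.card (N ⧸ d.ker) = Nat.card Fˣ :=
    Nat.card_congr (QuotientGroup.quotientKerEquivOfSurjective d hd).toEquiv
  have h3 : Nat.card d.ker = Nat.card (N ⊓ specialLinear ι F : Subgroup (GL ι F)) := by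
    refine Nat.card_congr
      { toFun := fun x => ⟨x.1.1, x.1.2, x.2⟩
        invFun := fun x => ⟨⟨x.1, x.2.1⟩, x.2.2⟩
        left_inv := fun x => rfl
        right_inv := fun x => rfl }
  rw [h1, h2, h3, Nat.card_units, Nat.card_eq_fintype_card (α := F), mul_comm]

/-- PSL-4' -/
theorem card_ext_sl_le {ι : Type} [Fintype ι] [DecidableEq ι] [Nonempty ι] {F : Type} [Field F] [Fintype F] {s : ℕ}
    {K : Subalgebra F (Matrix ι ι F)} (hK : IsFieldSubalgebra s K) :
    Nat.card (subalgebraNormalizer K ⊓ specialLinear ι F : Subgroup (GL ι F)) * (Fintype.card F - 1) ≤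
      s * Fintype.card F ^ (Fintype.card ι ^ 2 / s) := by
  rw [card_inf_sl hK]
  exact card_ext_le' hK

end Cfsg.Agent.H951.Rl
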