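import Cfsg.Prelude.Def_GeometricClasses
import Cfsg.Agent.GenOrth.Normal
import Cfsg.Agent.H727.GW.Isom
import Cfsg.Agent.H883.Bridge
import Cfsg.Agent.S0286
import Cfsg.Agent.S0287
import Cfsg.Agent.S0288

/-!
# Orders of the similarity groups (S3691, helper951)
-/

set_option autoImplicit false
set_option linter.unusedSectionVars false

namespace Cfsg.Agent.H951.Rl

open Cfsg Cfsg.Geo Module QuadraticMap
open Cfsg.Agent.LieClassical.OrthCore Cfsg.Agent.LieClassical.OrthTrans
open scoped Matrix MatrixGroups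

/-- a group fibred over a finite set with fibres inside cosets of `I` -/
theorem card_le_mul {G : Type*} [Group G] [Finite G] (S I : Subgroup G) {X : Type*} [Finite X] (μ : S → X)
    (h : ∀ a b : S, μ a = μ b → (a : G)⁻¹ * b ∈ I) : Nat.card S ≤ Nat.card X * Nat.card I := by
  classical
  let r : X → S := fun x => if hx : ∃ a, μ a = x then hx.choose else 1
  have hr : ∀ a, μ (r (μ a)) = μ a := by
    intro a
    have hx : ∃ b, μ b = μ a := ⟨a, rfl⟩
    have e : r (μ a) = hx.choose := dif_pos hx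
    rw [e]
    exact hx.choose_spec
  let g : S → X × I := fun a => (μ a, ⟨(r (μ a) : G)⁻¹ * a, h _ _ (hr a)⟩)
  have hg : Function.Injective g := by
    intro a b hab
    have h1 : μ a = μ b := congrArg Prod.fst hab
    have h2 : ((r (μ a) : G))⁻¹ * a = ((r (μ b) : G))⁻¹ * b := congrArg (fun t => ((t.2 : I) : G)) hab
    rw [h1] at h2
    exact Subtype.ext (mul_left_cancel h2)
  have h1 := Nat.card_le_card_of_injective g hg
  rwa [Nat.card_prod] at h1

theorem prod_le (q m : ℕ) : ∏ i ∈ Finset.range m, (q ^ (2 * (i + 1)) - 1) ≤ q ^ (m * (m + 1)) := by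
  induction m with
  | zero => simp
  | succ m ih =>
    rw [Finset.prod_range_succ]
    calc (∏ i ∈ Finset.range m, (q ^ (2 * (i + 1)) - 1)) * (q ^ (2 * (m + 1)) - 1)
        ≤ q ^ (m * (m + 1)) * q ^ (2 * (m + 1)) := Nat.mul_le_mul ih (Nat.sub_le _ _)
      _ = q ^ ((m + 1) * (m + 1 + 1)) := by rw [← pow_add]; congr 1; ring

theorem pow_aux3 (q a b c : ℕ) : q * (2 * q ^ a * q ^ b * q ^ c) = 2 * q ^ (a + b + c + 1) := by
  rw [pow_succ, pow_add, pow_add]; ring

theorem pow_aux3' (q a b c : ℕ) : (2 * q ^ a) * (q * q ^ b) * q ^ c = 2 * q ^ (a + b + c + 1) := by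
  rw [pow_succ, pow_add, pow_add]; ring

theorem pow_aux2 (q a b : ℕ) : q * (q ^ a * q ^ b) = q ^ (a + b + 1) := by
  rw [pow_succ, pow_add]; ring

section Symp

variable {ι : Type} [Fintype ι] [DecidableEq ι] {F : Type} [Field F] [Fintype F]

/-- PSL-4, symplectic forms -/
theorem card_sim_le {f : (ι → F) → (ι → F) → F} (hf : IsSymplecticForm f) :
    Nat.card (similarityGroup f) ≤ Fintype.card F ^ (Fintype.card ι * (Fintype.card ι + 1) / 2 + 1) := by
  classical
  have hb := hf.bilinear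
  let B : LinearMap.BilinForm F (ι → F) :=
    LinearMap.mk₂ F f (fun x y v => hb.add_left x y v)
      (fun c x v => by rw [hb.smul_left, smul_eq_mul]) (fun v x y => hb.add_right v x y)
      (fun c v x => by rw [hb.smul_right, smul_eq_mul])
  have hB : ∀ x, B x x = 0 := hf.alternating
  have hnd : ∀ x, (∀ y, B x y = 0) → x = 0 := by
    intro x hx
    by_contra h0
    obtain ⟨-, y, hy⟩ := hf.nondegenerate x h0
    exact hy (hx y)
  have hev := H727.GW.even_finrank (Fintype.card ι) (ι → F) B hB hnd (Module.finrank_fintype_fun_eq_card F)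
  obtain ⟨m, hm⟩ := hev
  have hm' : finrank F (ι → F) = 2 * m := by rw [Module.finrank_fintype_fun_eq_card, hm]; ring
  have hcard := H727.GW.card_isomGroup B hB hnd hm'
  let I : Subgroup (GL ι F) := (H727.GW.isomGroup B).comap
    (Cfsg.Agent.LieClassical.OrthFinite.glEquiv ι F).toMonoidHom
  have hfB : Finite (H727.GW.isomGroup B) := by
    have : Finite ((ι → F) ≃ₗ[F] (ι → F)) := Finite.of_equiv _ (Cfsg.Agent.LieClassical.OrthFinite.glEquiv ι F).toEquiv
    infer_instance
  have hI : Nat.card I ≤ Nat.card (H727.GW.isomGroup B) := by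
    refine Nat.card_le_card_of_injective
      (fun g : I => (⟨Cfsg.Agent.LieClassical.OrthFinite.glEquiv ι F g.1, g.2⟩ : H727.GW.isomGroup B)) ?_
    intro a b hab
    apply Subtype.ext
    exact (Cfsg.Agent.LieClassical.OrthFinite.glEquiv ι F).injective (congrArg Subtype.val hab)
  let μ : similarityGroup f → Fˣ := fun g => g.2.choose
  have hμ : ∀ (g : similarityGroup f) (u v : ι → F),
      f ((g : GL ι F) *ᵥ u) ((g : GL ι F) *ᵥ v) = (μ g : F) * f u v := fun g => g.2.choose_spec
  have h1 := card_le_mul (similarityGroup f) I μ (by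
    intro a b hab
    show (Cfsg.Agent.LieClassical.OrthFinite.glEquiv ι F ((a : GL ι F)⁻¹ * b)) ∈ H727.GW.isomGroup B
    rw [H727.GW.mem_isomGroup]
    intro u v
    rw [Cfsg.Agent.LieClassical.OrthFinite.glEquiv_apply, Cfsg.Agent.LieClassical.OrthFinite.glEquiv_apply]
    show f (((((a : GL ι F)⁻¹ * b : GL ι F)) : Matrix ι ι F) *ᵥ u) (((((a : GL ι F)⁻¹ * b : GL ι F)) : Matrix ι ι F) *ᵥ v) =
      f u v
    have h2 := hμ a (((((a : GL ι F)⁻¹ * b : GL ι F)) : Matrix ι ι F) *ᵥ u)
      (((((a : GL ι F)⁻¹ * b : GL ι F)) : Matrix ι ι F) *ᵥ v)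
    rw [Matrix.mulVec_mulVec, Matrix.mulVec_mulVec, ← Units.val_mul, mul_inv_cancel_left, hμ b, hab] at h2
    exact (mul_left_cancel₀ (μ b).ne_zero h2).symm)
  set q := Fintype.card F with hq
  have hq1 : 1 < q := Fintype.one_lt_card
  have hu : Nat.card Fˣ ≤ q := by
    rw [Nat.card_units, Nat.card_eq_fintype_card]
    omega
  have h3 := prod_le q m
  have e : Fintype.card ι * (Fintype.card ι + 1) / 2 = m ^ 2 + m * (m + 1) := by
    rw [hm, show (m + m) * (m + m + 1) = 2 * (m ^ 2 + m * (m + 1)) by ring, Nat.mul_div_cancel_left _ (by norm_num)]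
  rw [e]
  calc Nat.card (similarityGroup f) ≤ Nat.card Fˣ * Nat.card I := h1
    _ ≤ q * (q ^ (m ^ 2) * q ^ (m * (m + 1))) :=
      Nat.mul_le_mul hu (hI.trans (by rw [hcard]; exact Nat.mul_le_mul le_rfl h3))
    _ = q ^ (m ^ 2 + m * (m + 1) + 1) := pow_aux2 _ _ _

end Symp

section Quad

variable {ι : Type} [Fintype ι] [DecidableEq ι] {F : Type} [Field F] [Fintype F]

/-- the isometry group only depends on the similarity class of the form -/
theorem card_isometryGroup_of_sim {κ : Type} [Fintype κ] [DecidableEq κ] {Q : (ι → F) → F} {q : (κ → F) → F}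
    {c : F} (hc : c ≠ 0) (j : (κ → F) ≃ₗ[F] (ι → F)) (hj : ∀ x, Q (j x) = c * q x) :
    Nat.card (isometryGroup F Q) = Nat.card (isometryGroup F q) := by
  have h1 : Nat.card (isometryGroup F Q) = Nat.card {g : (ι → F) ≃ₗ[F] (ι → F) // ∀ v, Q (g v) = Q v} := by
    refine Nat.card_congr ((Cfsg.Agent.LieClassical.OrthFinite.glEquiv ι F).toEquiv.subtypeEquiv fun g => ?_)
    exact Cfsg.Agent.LieClassical.OrthFinite.mem_isometryGroup_iff
  have h2 : Nat.card (isometryGroup F q) = Nat.card {g : (κ → F) ≃ₗ[F] (κ → F) // ∀ v, q (g v) = q v} := by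
    refine Nat.card_congr ((Cfsg.Agent.LieClassical.OrthFinite.glEquiv κ F).toEquiv.subtypeEquiv fun g => ?_)
    exact Cfsg.Agent.LieClassical.OrthFinite.mem_isometryGroup_iff
  rw [h1, h2]
  refine Nat.card_congr (Equiv.subtypeEquiv
    { toFun := fun g => (j.trans g).trans j.symm
      invFun := fun g => (j.symm.trans g).trans j
      left_inv := fun g => LinearEquiv.ext fun v => by simp
      right_inv := fun g => LinearEquiv.ext fun v => by simp } fun g => ?_)
  constructor
  · intro h v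
    show q (j.symm (g (j v))) = q v
    have h3 := h (j v)
    rw [← j.apply_symm_apply (g (j v)), hj, hj] at h3
    exact mul_left_cancel₀ hc h3
  · intro h v
    have h3 : q (j.symm (g (j (j.symm v)))) = q (j.symm v) := h (j.symm v)
    rw [j.apply_symm_apply] at h3
    have h4 := hj (j.symm (g v))
    have h5 := hj (j.symm v)
    rw [j.apply_symm_apply] at h4 h5
    rw [h4, h5, h3]

theorem card_qsim_le_units {Q : (ι → F) → F} :
    Nat.card (quadSimilarityGroup Q) ≤ (Fintype.card F - 1) * Nat.card (isometryGroup F Q) := by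
  classical
  let μ : quadSimilarityGroup Q → Fˣ := fun g => g.2.choose
  have hμ : ∀ (g : quadSimilarityGroup Q) (v : ι → F),
      Q ((g : GL ι F) *ᵥ v) = (μ g : F) * Q v := fun g => g.2.choose_spec
  have h1 := card_le_mul (quadSimilarityGroup Q) (isometryGroup F Q) μ (by
    intro a b hab
    rw [Cfsg.Agent.LieClassical.OrthFinite.mem_isometryGroup_iff]
    intro v
    have h2 := hμ a (((((a : GL ι F)⁻¹ * b : GL ι F)) : Matrix ι ι F) *ᵥ v)
    rw [Matrix.mulVec_mulVec, ← Units.val_mul, mul_inv_cancel_left, hμ b, hab] at h2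
    exact (mul_left_cancel₀ (μ b).ne_zero h2).symm)
  rwa [Nat.card_units, Nat.card_eq_fintype_card (α := F)] at h1

theorem odd_card {n : ℕ} {Q : QuadraticForm F (ι → F)} (hQ : Nondeg Q) (h : GenOrth.Sim Q (quadFormOdd n F)) :
    Odd (Fintype.card F) := by
  classical
  by_contra hodd
  rw [Nat.not_odd_iff_even, Nat.even_iff] at hodd
  have h2 : (2 : F) = 0 := by
    have h3 : ringChar F = 2 := by
      by_contra hne
      have := FiniteField.odd_card_of_char_ne_two hne
      omega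
    have := CharP.cast_eq_zero F (ringChar F)
    rw [h3] at this
    exact_mod_cast this
  obtain ⟨c, hc, j, hj⟩ := h
  let e0 : Unit ⊕ (Fin n ⊕ Fin n) → F := Pi.single (Sum.inl ()) 1
  have h3 : ∀ v, polar (LieClassical.OrthForms.oddForm n F) e0 v = 0 := by
    intro v
    rw [LieClassical.OrthForms.polar_oddForm, h2]
    simp [e0]
  have h4 : j e0 = 0 := by
    apply hQ
    intro y
    obtain ⟨v, rfl⟩ := j.surjective y
    have h5 := h3 v
    rw [polar, LieClassical.OrthForms.coe_oddForm] at h5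
    rw [polar, ← map_add, hj, hj, hj, ← mul_sub, ← mul_sub, h5, mul_zero]
  have h5 : e0 = 0 := j.map_eq_zero_iff.1 h4
  have h6 := congrFun h5 (Sum.inl ())
  simp [e0] at h6

/-- PSL-4, quadratic forms -/
theorem card_qsim_le [Nonempty ι] {Q : (ι → F) → F} (hQ : IsNondegenerateQuadraticForm Q) :
    Nat.card (quadSimilarityGroup Q) ≤ 2 * Fintype.card F ^ (Fintype.card ι * (Fintype.card ι - 1) / 2 + 1) := by
  classical
  refine card_qsim_le_units.trans ?_
  obtain ⟨Q', rfl, hQ'⟩ := H883.Bridge.exists_quadraticForm hQ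
  have hNF := GenOrth.normal_form (Fintype.card ι) hQ' (Module.finrank_fintype_fun_eq_card F)
  have hq1 : 1 < Fintype.card F := Fintype.one_lt_card
  have hpos : 0 < Fintype.card ι := Fintype.card_pos
  rcases hNF with ⟨k, hk, hs⟩ | ⟨k, hk, hs⟩ | ⟨k, hk, a, b, hab, hs⟩
  · have hodd := odd_card hQ' hs
    obtain ⟨c, hc, j, hj⟩ := hs
    rw [card_isometryGroup_of_sim hc j hj, S0286.result rfl hodd k]
    set q := Fintype.card F with hq
    have e : Fintype.card ι * (Fintype.card ι - 1) / 2 = k ^ 2 + k * (k + 1) := by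
      rw [hk, Nat.add_sub_cancel, show (2 * k + 1) * (2 * k) = 2 * (k ^ 2 + k * (k + 1)) by ring,
        Nat.mul_div_cancel_left _ (by norm_num)]
    rw [e]
    calc (q - 1) * (2 * q ^ (k ^ 2) * ∏ i ∈ Finset.range k, (q ^ (2 * (i + 1)) - 1))
        ≤ q * (2 * q ^ (k ^ 2) * q ^ (k * (k + 1))) :=
          Nat.mul_le_mul (Nat.sub_le _ _) (Nat.mul_le_mul le_rfl (prod_le q k))
      _ = 2 * q ^ (k ^ 2 + k * (k + 1) + 1) := by rw [pow_succ, pow_add]; ring
  · obtain ⟨c, hc, j, hj⟩ := hs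
    obtain ⟨m, rfl⟩ : ∃ m, k = m + 1 := ⟨k - 1, by omega⟩
    rw [card_isometryGroup_of_sim hc j hj, S0287.result rfl (m + 1) (by omega)]
    set q := Fintype.card F with hq
    have e : Fintype.card ι * (Fintype.card ι - 1) / 2 = (m + 1) * m + (m + 1) + m * (m + 1) := by
      rw [hk, show 2 * (m + 1) - 1 = 2 * m + 1 by omega,
        show (2 * (m + 1)) * (2 * m + 1) = 2 * ((m + 1) * m + (m + 1) + m * (m + 1)) by ring,
        Nat.mul_div_cancel_left _ (by norm_num)]
    rw [e, Nat.add_sub_cancel]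
    calc (q - 1) * (2 * q ^ ((m + 1) * m) * (q ^ (m + 1) - 1) * ∏ i ∈ Finset.range m, (q ^ (2 * (i + 1)) - 1))
        ≤ q * (2 * q ^ ((m + 1) * m) * q ^ (m + 1) * q ^ (m * (m + 1))) :=
          Nat.mul_le_mul (Nat.sub_le _ _) (Nat.mul_le_mul (Nat.mul_le_mul le_rfl (Nat.sub_le _ _)) (prod_le q m))
      _ = 2 * q ^ ((m + 1) * m + (m + 1) + m * (m + 1) + 1) := pow_aux3 _ _ _ _
  · obtain ⟨c, hc, j, hj⟩ := hs
    have h1 := S0288.result (F := F) rfl (k + 1) (by omega) a b hab
    rw [Nat.add_sub_cancel] at h1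
    rw [card_isometryGroup_of_sim hc j hj, h1]
    set q := Fintype.card F with hq
    have e : Fintype.card ι * (Fintype.card ι - 1) / 2 = (k + 1) * k + (k + 1) + k * (k + 1) := by
      rw [hk, show 2 * k + 2 - 1 = 2 * k + 1 by omega,
        show (2 * k + 2) * (2 * k + 1) = 2 * ((k + 1) * k + (k + 1) + k * (k + 1)) by ring,
        Nat.mul_div_cancel_left _ (by norm_num)]
    rw [e]
    have h2 : (q - 1) * (q ^ (k + 1) + 1) ≤ q * q ^ (k + 1) := by
      obtain ⟨x, hx⟩ : ∃ x, q = x + 1 := ⟨q - 1, by omega⟩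
      have h3 : q ≤ q ^ (k + 1) := Nat.le_self_pow (by omega) q
      rw [hx, Nat.add_sub_cancel, mul_add, mul_one, add_mul, one_mul]
      rw [hx] at h3
      omega
    calc (q - 1) * (2 * q ^ ((k + 1) * k) * (q ^ (k + 1) + 1) * ∏ i ∈ Finset.range k, (q ^ (2 * (i + 1)) - 1))
        = (2 * q ^ ((k + 1) * k)) * ((q - 1) * (q ^ (k + 1) + 1)) * ∏ i ∈ Finset.range k, (q ^ (2 * (i + 1)) - 1) := by
          ring
      _ ≤ (2 * q ^ ((k + 1) * k)) * (q * q ^ (k + 1)) * q ^ (k * (k + 1)) :=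
          Nat.mul_le_mul (Nat.mul_le_mul le_rfl h2) (prod_le q k)
      _ = 2 * q ^ ((k + 1) * k + (k + 1) + k * (k + 1) + 1) := pow_aux3' _ _ _ _

end Quad

end Cfsg.Agent.H951.Rl
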