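import Cfsg.Agent.H954.FieldSub
import Cfsg.Agent.H912.Core4

/-!
# Orders of the normalisers of extension fields (S3691, helper951)
-/

set_option autoImplicit false

namespace Cfsg.Agent.H951.Rl

open Cfsg Cfsg.Geo Module
open scoped Matrix MatrixGroups

/-- the number of matrices commuting with a field of matrices -/
theorem card_comm {ι : Type} [Fintype ι] [DecidableEq ι] {F : Type*} [Field F] [Fintype F] {L : Type*} [Field L]
    [Algebra F L] [FiniteDimensional F L] (φ : L →ₐ[F] Module.End F (ι → F)) :
    Nat.card {M : Matrix ι ι F // ∀ a v, M *ᵥ (φ a v) = φ a (M *ᵥ v)} ≤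
      Fintype.card F ^ (Fintype.card ι ^ 2 / finrank F L) := by
  classical
  have hfL : Finite L := Module.finite_of_finite F
  have hfV : Finite (H954.FieldSub.VS φ) := inferInstanceAs (Finite (ι → F))
  have hfE : Finite (H954.FieldSub.VS φ →ₗ[L] H954.FieldSub.VS φ) := Module.finite_of_finite L
  let g : {M : Matrix ι ι F // ∀ a v, M *ᵥ (φ a v) = φ a (M *ᵥ v)} →
      (H954.FieldSub.VS φ →ₗ[L] H954.FieldSub.VS φ) := fun M =>
    { toFun := fun v => (M.1 *ᵥ v : ι → F)
      map_add' := fun u v => Matrix.mulVec_add M.1 u v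
      map_smul' := fun a v => M.2 a v }
  have hg : Function.Injective g := by
    intro M N h
    apply Subtype.ext
    apply Matrix.ext_of_mulVec_single
    intro i
    exact LinearMap.congr_fun h (Pi.single i 1 : ι → F)
  refine (Nat.card_le_card_of_injective g hg).trans (le_of_eq ?_)
  have h1 := H954.FieldSub.finrank_VS φ
  rw [Module.finrank_fintype_fun_eq_card] at h1
  rw [Module.natCard_eq_pow_finrank (K := L), Module.finrank_linearMap, Module.natCard_eq_pow_finrank (K := F),
    ← pow_mul, Nat.card_eq_fintype_card, ← h1]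
  congr 1
  set s := finrank F L with hs
  have hs0 : 0 < s := Module.finrank_pos
  set k := finrank L (H954.FieldSub.VS φ)
  rw [show (s * k) ^ 2 = s * (s * (k * k)) by ring, Nat.mul_div_cancel_left _ hs0]

/-- the order of the normaliser of a field of matrices of degree `s` -/
theorem card_ext_le' {ι : Type} [Fintype ι] [DecidableEq ι] [Nonempty ι] {F : Type} [Field F] [Fintype F] {s : ℕ}
    {K : Subalgebra F (Matrix ι ι F)} (hK : IsFieldSubalgebra s K) :
    Nat.card (subalgebraNormalizer K) ≤ s * Fintype.card F ^ (Fintype.card ι ^ 2 / s) := by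
  classical
  have hfin : Finite (GL ι F) := inferInstance
  have hN : H912.NormAlg (subalgebraNormalizer K) K := fun _ hh a ha => (hh a).mp ha
  let _ : Field K := (H912.isField_of_fieldSub hK).toField
  have hfd : Module.Finite F K := inferInstance
  have hKfin : Finite K := Module.finite_of_finite F
  have hgal : IsGalois F K := inferInstance
  let φ : subalgebraNormalizer K →* (K ≃ₐ[F] K) :=
    { toFun := fun h => H912.conjSub hN h
      map_one' := by
        apply AlgEquiv.ext
        intro x
        apply Subtype.ext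
        rw [H912.conjSub_coe]
        simp
      map_mul' := fun a b => by
        apply AlgEquiv.ext
        intro x
        apply Subtype.ext
        rw [AlgEquiv.mul_apply, H912.conjSub_coe, H912.conjSub_coe, H912.conjSub_coe, Subgroup.coe_mul,
          _root_.mul_inv_rev, Units.val_mul, Units.val_mul]
        simp only [Matrix.mul_assoc] }
  have hs0 : 0 < s := H912.finrank_pos_fieldSub hK
  let ψ : K →ₐ[F] Module.End F (ι → F) := (Matrix.toLinAlgEquiv' (R := F) (n := ι)).toAlgHom.comp K.val
  have hψ : ∀ (a : K) (v : ι → F), ψ a v = (a : Matrix ι ι F) *ᵥ v := fun a v => rfl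
  have hker : Nat.card φ.ker ≤ Fintype.card F ^ (Fintype.card ι ^ 2 / s) := by
    have hmem : ∀ g : φ.ker, ∀ (a : K) (v : ι → F),
        (((g : subalgebraNormalizer K) : GL ι F) : Matrix ι ι F) *ᵥ (ψ a v) =
          ψ a ((((g : subalgebraNormalizer K) : GL ι F) : Matrix ι ι F) *ᵥ v) := by
      intro g a v
      have h1 : (H912.conjSub hN (g : subalgebraNormalizer K)) = 1 := g.2
      have h2 := H912.conjSub_coe hN (g : subalgebraNormalizer K) a
      rw [h1] at h2
      change (a : Matrix ι ι F) = _ at h2
      rw [hψ, hψ, Matrix.mulVec_mulVec, Matrix.mulVec_mulVec]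
      congr 1
      conv_rhs => rw [h2]
      rw [Matrix.mul_assoc, ← Units.val_mul, inv_mul_cancel, Units.val_one, Matrix.mul_one]
    have h1 := card_comm ψ
    have h2 : finrank F K = s := hK.finrank_eq
    rw [h2] at h1
    refine le_trans (Nat.card_le_card_of_injective (fun g : φ.ker =>
      (⟨_, hmem g⟩ : {M : Matrix ι ι F // ∀ a v, M *ᵥ (ψ a v) = ψ a (M *ᵥ v)})) ?_) h1
    intro a b hab
    apply Subtype.ext
    apply Subtype.ext
    apply Units.ext
    exact congrArg Subtype.val hab
  have hran : Nat.card φ.range ≤ s := by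
    have h1 : Nat.card (K ≃ₐ[F] K) = s := by
      rw [IsGalois.card_aut_eq_finrank, hK.finrank_eq]
    have hf2 : Finite (K ≃ₐ[F] K) := Nat.finite_of_card_ne_zero (by rw [h1]; omega)
    calc Nat.card φ.range ≤ Nat.card (K ≃ₐ[F] K) := Nat.card_le_card_of_injective _ φ.range.subtype_injective
      _ = s := h1
  have h1 := Subgroup.card_eq_card_quotient_mul_card_subgroup φ.ker
  have h2 : Nat.card (subalgebraNormalizer K ⧸ φ.ker) = Nat.card φ.range :=
    Nat.card_congr (QuotientGroup.quotientKerEquivRange φ).toEquiv
  rw [h1, h2]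
  exact Nat.mul_le_mul hran hker

/-- PSL-4, extension fields -/
theorem card_ext_le {ι : Type} [Fintype ι] [DecidableEq ι] [Nonempty ι] {F : Type} [Field F] [Fintype F] {s : ℕ}
    (_hs : s.Prime) {K : Subalgebra F (Matrix ι ι F)} (hK : IsFieldSubalgebra s K) :
    Nat.card (subalgebraNormalizer K) ≤ s * Fintype.card F ^ (Fintype.card ι ^ 2 / s) :=
  card_ext_le' hK

end Cfsg.Agent.H951.Rl
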