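import Cfsg.Agent.H304.PpdClass

/-!
# Irreducibility from elements of primitive prime order (S3691, helper951)

* `dims_of_ppd` : `u ∣ |R|`, `u` primitive for `(|F|, k)`, `W` invariant: `k ≤ dim W` or `dim W + k ≤ n`
* `irr_of_ppd` : `k = n`: `R` is irreducible
* `not_irr` : a reducible group fixes a proper nonzero subspace
-/

set_option autoImplicit false

namespace Cfsg.Agent.H951.Rl

open Matrix Cfsg Cfsg.Geo Cfsg.Agent.H728.DghpNum Cfsg.Agent.H304.Ppd Module
open scoped MatrixGroups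

variable {ι : Type} [Fintype ι] [DecidableEq ι] {F : Type*} [Field F]

theorem mem_stab_of {R : Subgroup (GL ι F)} {W : Submodule F (ι → F)}
    (h : ∀ x ∈ R, ∀ w ∈ W, (x : Matrix ι ι F) *ᵥ w ∈ W) : R ≤ subspaceStabilizer W := by
  intro x hx w
  refine ⟨h x hx w, fun hw => ?_⟩
  have h1 := h x⁻¹ (R.inv_mem hx) ((x : Matrix ι ι F) *ᵥ w) hw
  rwa [mulVec_mulVec, ← Units.val_mul, inv_mul_cancel, Units.val_one, one_mulVec] at h1

/-- a group which is not irreducible fixes a subspace -/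
theorem not_irr {R : Subgroup (GL ι F)} (h : ¬ ActsIrreducibly (matrixSet R)) :
    ∃ W : Submodule F (ι → F), W ≠ ⊥ ∧ W ≠ ⊤ ∧ R ≤ subspaceStabilizer W := by
  unfold ActsIrreducibly at h
  push Not at h
  obtain ⟨W, h1, h2, h3⟩ := h
  refine ⟨W, h2, h3, mem_stab_of fun x hx w hw => ?_⟩
  have h4 := h1 (x : Matrix ι ι F) ⟨x, hx, rfl⟩ (Submodule.mem_map_of_mem hw)
  rwa [toLin'_apply] at h4

/-- a group which is irreducible fixes no subspace -/
theorem irr_of {R : Subgroup (GL ι F)}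
    (h : ∀ W : Submodule F (ι → F), (∀ x ∈ R, ∀ w ∈ W, (x : Matrix ι ι F) *ᵥ w ∈ W) → W = ⊥ ∨ W = ⊤) :
    ActsIrreducibly (matrixSet R) := by
  intro W hW
  refine h W fun x hx w hw => ?_
  have h4 := hW (x : Matrix ι ι F) ⟨x, hx, rfl⟩ (Submodule.mem_map_of_mem hw)
  rwa [toLin'_apply] at h4

theorem of_irr {R : Subgroup (GL ι F)} (h : ActsIrreducibly (matrixSet R)) {W : Submodule F (ι → F)}
    (hW : ∀ x ∈ R, ∀ w ∈ W, (x : Matrix ι ι F) *ᵥ w ∈ W) : W = ⊥ ∨ W = ⊤ := by
  refine h W ?_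
  rintro _ ⟨x, hx, rfl⟩ _ ⟨w, hw, rfl⟩
  rw [toLin'_apply]
  exact hW x hx w hw

theorem of_irr' {R : Subgroup (GL ι F)} (h : ActsIrreducibly (matrixSet R)) {W : Submodule F (ι → F)}
    (hW : R ≤ subspaceStabilizer W) : W = ⊥ ∨ W = ⊤ :=
  of_irr h fun _ hx => mem_of_subspaceStabilizer (hW hx)

theorem irr_mono {R S : Subgroup (GL ι F)} (h : ActsIrreducibly (matrixSet R)) (hRS : R ≤ S) :
    ActsIrreducibly (matrixSet S) :=
  irr_of fun _ hW => of_irr h fun x hx => hW x (hRS hx)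

variable [Fintype F]

/-- an element of order `u` -/
theorem exists_elt {u : ℕ} (hu : u.Prime) {R : Subgroup (GL ι F)} (h : u ∣ Nat.card R) : ∃ x ∈ R, orderOf x = u := by
  have : Fact u.Prime := ⟨hu⟩
  obtain ⟨x, hx⟩ := exists_prime_orderOf_dvd_card' u h
  exact ⟨x, x.2, by rw [Subgroup.orderOf_coe]; exact hx⟩

/-- the dimensions of the invariant subspaces, vector form -/
theorem dims_of_ppd' {k u : ℕ} (hP : Ppd (Fintype.card F) k u) {R : Subgroup (GL ι F)} (hu : u ∣ Nat.card R)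
    {W : Submodule F (ι → F)} (hW : ∀ x ∈ R, ∀ w ∈ W, (x : Matrix ι ι F) *ᵥ w ∈ W) :
    k ≤ finrank F W ∨ finrank F W + k ≤ Fintype.card ι := by
  obtain ⟨x, hx, hxu⟩ := exists_elt hP.prime hu
  exact le_finrank_of_mem_stabilizer hP hxu (hW x hx)

/-- the dimensions of the invariant subspaces -/
theorem dims_of_ppd {k u : ℕ} (hP : Ppd (Fintype.card F) k u) {R : Subgroup (GL ι F)} (hu : u ∣ Nat.card R)
    {W : Submodule F (ι → F)} (hW : R ≤ subspaceStabilizer W) :
    k ≤ finrank F W ∨ finrank F W + k ≤ Fintype.card ι :=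
  dims_of_ppd' hP hu fun _ hx => mem_of_subspaceStabilizer (hW hx)

/-- **irreducibility** -/
theorem irr_of_ppd {u : ℕ} (hP : Ppd (Fintype.card F) (Fintype.card ι) u) {R : Subgroup (GL ι F)} (hu : u ∣ Nat.card R) :
    ActsIrreducibly (matrixSet R) := by
  refine irr_of fun W hW => ?_
  rcases dims_of_ppd' hP hu hW with h | h
  · right
    apply Submodule.eq_top_of_finrank_eq
    rw [Module.finrank_fintype_fun_eq_card]
    have h1 := Submodule.finrank_le W
    rw [Module.finrank_fintype_fun_eq_card] at h1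
    omega
  · left
    apply Submodule.finrank_eq_zero.1
    omega

/-- a reducible group with an element of primitive order `k`, `2k > n`: a fixed subspace of dimension `≤ n - k` or `≥ k` -/
theorem exists_of_not_irr {k u : ℕ} (hP : Ppd (Fintype.card F) k u) {R : Subgroup (GL ι F)} (hu : u ∣ Nat.card R)
    (h : ¬ ActsIrreducibly (matrixSet R)) : ∃ W : Submodule F (ι → F), R ≤ subspaceStabilizer W ∧
      0 < finrank F W ∧ finrank F W < Fintype.card ι ∧ (k ≤ finrank F W ∨ finrank F W + k ≤ Fintype.card ι) := by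
  obtain ⟨W, h1, h2, h3⟩ := not_irr h
  refine ⟨W, h3, ?_, ?_, dims_of_ppd hP hu h3⟩
  · rw [Nat.pos_iff_ne_zero]
    intro h0
    exact h1 (Submodule.finrank_eq_zero.1 h0)
  · have h4 := Submodule.finrank_lt h2
    rwa [Module.finrank_fintype_fun_eq_card] at h4

end Cfsg.Agent.H951.Rl
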